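import Cfsg.Agent.H972.CS.Main
import Cfsg.Agent.H27.Exc.Inst

/-!
# The centraliser formula for `³D₄(q)` and `²E₆(q)` (helper373)

* `bound_gen` : `H972.CS.Main.bound` for a group embedded in the fixed points of a Frobenius frame automorphism;
* `bound_twD4`, `bound_twE6`.
-/

set_option autoImplicit false
set_option linter.unusedSectionVars false

namespace Cfsg.Agent.H373.TS.Twist

open CoxeterSystem Subgroup Cfsg Cfsg.Lie Cfsg.Lie.ChevalleyDatum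
open Cfsg.Agent.ChevalleyStructure Cfsg.Agent.ChevalleyStructure.Elts Cfsg.Agent.ChevalleyStructure.CoxeterGeom
  Cfsg.Agent.ChevalleyStructure.CoxeterGeomTypes Cfsg.Agent.ChevalleyStructure.NPerm
open Cfsg.Agent.Nodes.RGDChev Cfsg.Agent.KFacts.RgdChevCoord Cfsg.Agent.GpExc.Field
open Cfsg.Agent.BpTab Cfsg.Agent.BpExc Cfsg.Agent.BpExc.TowChev Cfsg.Agent.BpExc.FamUntw Cfsg.Agent.BpExc.FamInst
  Cfsg.Agent.BpExc.LangFr Cfsg.Agent.BpExc.FamField Cfsg.Agent.BpExc.AsmN Cfsg.Agent.BpExc.RowsUntw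
  Cfsg.Agent.BpExc.RowsN Cfsg.Agent.BpExc.FamExt Cfsg.Agent.H27.Exc
open Cfsg.Agent.H972.CS Cfsg.Agent.H972.CS.Main Cfsg.Agent.BpExc.Pair

universe u v

theorem bound_gen {D : ChevalleyDatum} {l : ℕ} {M : CoxeterMatrix (Fin l)} (hp : IsType D l M)
    {r : ℕ} [Fact r.Prime] {n : ℕ} (hn0 : 0 < n)
    {σ : MulAut ↥(D.group (AlgebraicClosure (ZMod r)))} {g : (Fin l → ℤ) ≃+ (Fin l → ℤ)} (hσ : IsFrob r n σ)
    (Fσ : Fr.Fr M.toCoxeterSystem hp.isCartan (TT D (AlgebraicClosure (ZMod r)))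
      (XX D l (AlgebraicClosure (ZMod r))) σ g)
    {d : ℕ} {B : Fin l → Fin l → ℤ} (hB : InvC D l d B) (hd : d ≠ 0) (hfin : Finite ↥(fixedSubgroup σ))
    {K₀ : Type v} [Group K₀] (ι : K₀ →* ↥(D.group (AlgebraicClosure (ZMod r)))) (hι : Function.Injective ι)
    (hfix : ∀ a, σ (ι a) = ι a) {s : ℕ} (hs : s.Prime) (hsr : s ≠ r) {Rf : Set ((Fin l → ℤ) →+ ZMod s)}
    (hRf : Meets hp M.toCoxeterSystem Rf) {x : K₀} (hxs : x ^ s = 1) (hx1 : x ≠ 1) :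
    ∃ f ∈ Rf, f ≠ 0 ∧ ∃ w : M.Group,
      Cfsg.Agent.H972.CS.Main.Pair hp M.toCoxeterSystem g (r ^ n) s f w ∧
      ∀ Cw : Finset M.Group, Cov hp M.toCoxeterSystem g f w Cw →
        Nat.card ↥(Subgroup.centralizer {x}) ≤ val hp M.toCoxeterSystem g (r ^ n) f w Cw := by
  classical
  have hk : LocFin (AlgebraicClosure (ZMod r)) := locFin_of_isAlgebraic r _
  obtain ⟨z, hz⟩ := TorAll.exists_toral' hp r (y := ι x) hs hsr (by rw [← map_pow, hxs, map_one])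
  have hfx : Finite ↥(fixC σ (ι x)) := by
    refine Finite.of_injective (fun y : ↥(fixC σ (ι x)) =>
      (⟨y.1, (mem_fixC.1 y.2).1⟩ : ↥(fixedSubgroup σ))) (fun a b hab => ?_)
    exact Subtype.ext (congrArg (fun z : ↥(fixedSubgroup σ) => z.1) hab)
  obtain ⟨f, h1, h2, w, h3, h4⟩ := bound hp M.toCoxeterSystem hk hn0 hσ Fσ hB hd hs hsr hRf (x := ι x) (z := z)
    (hfix x) (by rw [← map_pow, hxs, map_one]) (fun h0 => hx1 (hι (by rw [h0, map_one]))) hz rfl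
  refine ⟨f, h1, h2, w, h3, fun Cw hCw => le_trans ?_ (h4 Cw hCw)⟩
  let E : ↥(Subgroup.centralizer {x}) → ↥(fixC σ (ι x)) := fun y =>
    ⟨ι y, mem_fixC.2 ⟨hfix y, by rw [← map_mul, ← map_mul, Subgroup.mem_centralizer_singleton_iff.1 y.2]⟩⟩
  refine Nat.card_le_card_of_injective E fun a b hab => ?_
  apply Subtype.ext
  apply hι
  exact congrArg (fun z : ↥(fixC σ (ι x)) => (z : ↥(D.group (AlgebraicClosure (ZMod r))))) hab

open Cfsg.Agent.ChevalleyStructure.GraphSymm (symmE6 symmD4a)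

/-- **`³D₄(q)`.** -/
theorem bound_twD4 {K : Type} [Field K] [Fintype K] {q r n : ℕ} [Fact r.Prime] [CharP K r]
    (hn0 : 0 < n) (hn : q = r ^ n) (hK : Fintype.card K = q ^ 3) {s : ℕ} (hs : s.Prime) (hsr : s ≠ r)
    {Rf : Set ((Fin 4 → ℤ) →+ ZMod s)} (hRf : Meets Nodes.RGDTwD4.hp coxeterD4.toCoxeterSystem Rf)
    {x : ↥(twistedD4 K q)} (hxs : x ^ s = 1) (hx1 : x ≠ 1) :
    ∃ f ∈ Rf, f ≠ 0 ∧ ∃ w : coxeterD4.Group,
      Cfsg.Agent.H972.CS.Main.Pair Nodes.RGDTwD4.hp coxeterD4.toCoxeterSystem (TwFr.permE TwFr.rho4) q s f w ∧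
      ∀ Cw : Finset coxeterD4.Group, Cov Nodes.RGDTwD4.hp coxeterD4.toCoxeterSystem (TwFr.permE TwFr.rho4) f w Cw →
        Nat.card ↥(Subgroup.centralizer {x}) ≤
          val Nodes.RGDTwD4.hp coxeterD4.toCoxeterSystem (TwFr.permE TwFr.rho4) q f w Cw := by
  obtain ⟨f⟩ := exists_emb r K
  have hk : LocFin (AlgebraicClosure (ZMod r)) := locFin_of_isAlgebraic r _
  have hF := TwFr.isFrob_sig4 (k := AlgebraicClosure (ZMod r)) r 1 n
  have hfin : Finite ↥(fixedSubgroup (TwFr.sig4 (AlgebraicClosure (ZMod r)) r 1 n)) := Sig.finite_fixed hk hn0 hF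
  have hq : IsPrimePow q := (isPrimePow_nat_iff _).2 ⟨r, n, Fact.out, hn0, hn.symm⟩
  have hsig : ∀ g : ↥(chevD4.group (AlgebraicClosure (ZMod r))),
      ((TwFr.sig4 (AlgebraicClosure (ZMod r)) r 1 n g : ↥(chevD4.group (AlgebraicClosure (ZMod r)))) :
        GL chevD4.Idx (AlgebraicClosure (ZMod r))) =
      D4Fixed.sig ((frb (AlgebraicClosure (ZMod r)) r n :
        AlgebraicClosure (ZMod r) ≃+* AlgebraicClosure (ZMod r)) :
        AlgebraicClosure (ZMod r) →+* AlgebraicClosure (ZMod r)) (g : GL chevD4.Idx (AlgebraicClosure (ZMod r))) := by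
    intro g
    have e : TwFr.sig4 (AlgebraicClosure (ZMod r)) r 1 n =
        FamTw.Gr.gr TwFr.inListD4 symmD4a * phi chevD4 (AlgebraicClosure (ZMod r)) r n := by
      show FamTw.Gr.gr TwFr.inListD4 symmD4a ^ 1 * _ = _
      rw [pow_one]
    rw [e]
    rfl
  have hfix : ∀ a, TwFr.sig4 (AlgebraicClosure (ZMod r)) r 1 n (em4 q f a) = em4 q f a := by
    intro a
    obtain ⟨φ, hφ'⟩ := D4Fixed.exists_frob hq hK
    apply Subtype.ext
    rw [hsig]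
    exact FamTw.Gr.sig_glMap symmD4a (Φ := frb (AlgebraicClosure (ZMod r)) r n)
      (fun a => by rw [frb_apply, hφ', map_pow, hn]) (D4Fixed.twisted_le_fix hK hφ' a.2)
  have h := bound_gen Nodes.RGDTwD4.hp hn0 hF (TwFr.fr_sig4_one hk r Nodes.RGDTwD4.hp coxeterD4.toCoxeterSystem n)
    H129.TorusChar.invC_D4 (by norm_num) hfin (em4 q f) (em4_injective f) hfix hs hsr hRf hxs hx1
  rw [← hn] at h
  exact h

/-- **`²E₆(q)`.** -/
theorem bound_twE6 {K : Type} [Field K] [Fintype K] {q r n : ℕ} [Fact r.Prime] [CharP K r]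
    (hn0 : 0 < n) (hn : q = r ^ n) (hK : Fintype.card K = q ^ 2) {s : ℕ} (hs : s.Prime) (hsr : s ≠ r)
    {Rf : Set ((Fin 6 → ℤ) →+ ZMod s)} (hRf : Meets e6T CoxeterMatrix.E₆.toCoxeterSystem Rf)
    {x : ↥(twistedE6 K q)} (hxs : x ^ s = 1) (hx1 : x ≠ 1) :
    ∃ f ∈ Rf, f ≠ 0 ∧ ∃ w : CoxeterMatrix.E₆.Group,
      Cfsg.Agent.H972.CS.Main.Pair e6T CoxeterMatrix.E₆.toCoxeterSystem (TwFr.permE TwFr.rho6) q s f w ∧
      ∀ Cw : Finset CoxeterMatrix.E₆.Group, Cov e6T CoxeterMatrix.E₆.toCoxeterSystem (TwFr.permE TwFr.rho6) f w Cw →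
        Nat.card ↥(Subgroup.centralizer {x}) ≤
          val e6T CoxeterMatrix.E₆.toCoxeterSystem (TwFr.permE TwFr.rho6) q f w Cw := by
  obtain ⟨f⟩ := exists_emb r K
  have hk : LocFin (AlgebraicClosure (ZMod r)) := locFin_of_isAlgebraic r _
  have hF := TwFr.isFrob_sig6 (k := AlgebraicClosure (ZMod r)) r n
  have hfin : Finite ↥(fixedSubgroup (TwFr.sig6 (AlgebraicClosure (ZMod r)) r n)) := Sig.finite_fixed hk hn0 hF
  have hq : IsPrimePow q := (isPrimePow_nat_iff _).2 ⟨r, n, Fact.out, hn0, hn.symm⟩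
  have hfix : ∀ a, TwFr.sig6 (AlgebraicClosure (ZMod r)) r n (FamTw.Six.em q f a) = FamTw.Six.em q f a := by
    intro a
    obtain ⟨φ, hφ, hqq⟩ := TwE6Basic.exists_frob hq hK
    exact FamTw.Six.sig_em hφ hqq f (Φ := frb (AlgebraicClosure (ZMod r)) r n)
      (fun a => by rw [frb_apply, hφ, map_pow, hn]) a
  have h := bound_gen e6T hn0 hF (TwFr.fr_sig6 hk r e6T CoxeterMatrix.E₆.toCoxeterSystem n)
    inv_E6 (by norm_num) hfin (FamTw.Six.em q f) (FamTw.Six.em_injective f) hfix hs hsr hRf hxs hx1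
  rw [← hn] at h
  exact h

end Cfsg.Agent.H373.TS.Twist
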