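import Cfsg.Agent.H972.CS.Main
import Cfsg.Agent.H27.Exc.Inst
import Cfsg.Agent.H686.EX.Kill

/-!
# The centraliser formula for the untwisted groups (helper373)

* `bound_untw` : `H972.CS.Main.bound` for `x ∈ D.group F`, `F` finite of characteristic `r`, `x ^ s = 1`, `x ≠ 1`,
  `s ≠ r` prime;
* `le_cG` : from `|C(x)| ≤ m` and `c m ≤ |G|` to `c ≤ cG x`.
-/

set_option autoImplicit false
set_option linter.unusedSectionVars false

namespace Cfsg.Agent.H373.TS

open CoxeterSystem Subgroup Cfsg Cfsg.Lie Cfsg.Lie.ChevalleyDatum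
open Cfsg.Agent.ChevalleyStructure Cfsg.Agent.ChevalleyStructure.Elts Cfsg.Agent.ChevalleyStructure.CoxeterGeom
  Cfsg.Agent.ChevalleyStructure.CoxeterGeomTypes Cfsg.Agent.ChevalleyStructure.NPerm
open Cfsg.Agent.Nodes.RGDChev Cfsg.Agent.KFacts.RgdChevCoord Cfsg.Agent.GpExc.Field
open Cfsg.Agent.BpTab Cfsg.Agent.BpExc Cfsg.Agent.BpExc.TowChev Cfsg.Agent.BpExc.FamUntw Cfsg.Agent.BpExc.FamInst
  Cfsg.Agent.BpExc.LangFr Cfsg.Agent.BpExc.FamField Cfsg.Agent.BpExc.AsmN Cfsg.Agent.BpExc.RowsUntw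
  Cfsg.Agent.BpExc.RowsN Cfsg.Agent.BpExc.FamExt
open Cfsg.Agent.H972.CS Cfsg.Agent.H972.CS.Main Cfsg.Agent.BpExc.Pair

theorem bound_untw {D : ChevalleyDatum} {l : ℕ} {M : CoxeterMatrix (Fin l)} (hp : IsType D l M)
    {r : ℕ} [Fact r.Prime] {F : Type} [Field F] [Fintype F] [CharP F r] {n : ℕ} (hn0 : 0 < n)
    (hn : Fintype.card F = r ^ n) {d : ℕ} {B : Fin l → Fin l → ℤ} (hB : InvC D l d B) (hd : d ≠ 0)
    {s : ℕ} (hs : s.Prime) (hsr : s ≠ r) {Rf : Set ((Fin l → ℤ) →+ ZMod s)}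
    (hRf : Meets hp M.toCoxeterSystem Rf) {x : ↥(D.group F)} (hxs : x ^ s = 1) (hx1 : x ≠ 1) :
    ∃ f ∈ Rf, f ≠ 0 ∧ ∃ w : M.Group,
      Cfsg.Agent.H972.CS.Main.Pair hp M.toCoxeterSystem (AddEquiv.refl (Fin l → ℤ)) (r ^ n) s f w ∧
      ∀ Cw : Finset M.Group, Cov hp M.toCoxeterSystem (AddEquiv.refl (Fin l → ℤ)) f w Cw →
        Nat.card ↥(Subgroup.centralizer {x}) ≤
          val hp M.toCoxeterSystem (AddEquiv.refl (Fin l → ℤ)) (r ^ n) f w Cw := by
  classical
  obtain ⟨f⟩ := exists_emb r F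
  have hk : LocFin (AlgebraicClosure (ZMod r)) := locFin_of_isAlgebraic r _
  have hfin := finite_phi (D := D) (k := AlgebraicClosure (ZMod r)) (r := r) hn0
  let φ : AlgebraicClosure (ZMod r) →+* AlgebraicClosure (ZMod r) :=
    ((frb (AlgebraicClosure (ZMod r)) r n : AlgebraicClosure (ZMod r) ≃+* AlgebraicClosure (ZMod r)) :
      AlgebraicClosure (ZMod r) →+* AlgebraicClosure (ZMod r))
  have hφ : ∀ t, φ t = t ^ Fintype.card F := by
    intro t
    rw [hn]
    exact frb_apply _ r n t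
  have hσφ : ∀ y : ↥(D.group (AlgebraicClosure (ZMod r))),
      ((phi D (AlgebraicClosure (ZMod r)) r n y : ↥(D.group (AlgebraicClosure (ZMod r)))) :
        GL D.Idx (AlgebraicClosure (ZMod r))) = glMap D φ (y : GL D.Idx (AlgebraicClosure (ZMod r))) := by
    intro y
    apply Units.ext
    rfl
  have hfix : ∀ a, phi D (AlgebraicClosure (ZMod r)) r n (emb hp.inList f a) = emb hp.inList f a :=
    fun a => Emb.emb_fix hp.inList hφ hσφ a
  set σ := phi D (AlgebraicClosure (ZMod r)) r n with hσdef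
  have hinj : Function.Injective (emb hp.inList f) := emb_injective hp.inList f
  obtain ⟨z, hz⟩ := TorAll.exists_toral' hp r (y := emb hp.inList f x) hs hsr (by rw [← map_pow, hxs, map_one])
  have hfx : Finite ↥(fixC σ (emb hp.inList f x)) := by
    refine Finite.of_injective (fun y : ↥(fixC σ (emb hp.inList f x)) =>
      (⟨y.1, (mem_fixC.1 y.2).1⟩ : ↥(fixedSubgroup σ))) (fun a b hab => ?_)
    exact Subtype.ext (congrArg (fun z : ↥(fixedSubgroup σ) => z.1) hab)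
  obtain ⟨g, h1, h2, w, h3, h4⟩ := bound hp M.toCoxeterSystem hk hn0 (phi_isFrob r n)
    (phi_fr hp M.toCoxeterSystem r hk n) hB hd hs hsr hRf (x := emb hp.inList f x) (z := z) (hfix x)
    (by rw [← map_pow, hxs, map_one]) (fun h0 => hx1 (hinj (by rw [h0, map_one]))) hz rfl
  refine ⟨g, h1, h2, w, h3, fun Cw hCw => le_trans ?_ (h4 Cw hCw)⟩
  let E : ↥(Subgroup.centralizer {x}) → ↥(fixC σ (emb hp.inList f x)) := fun y =>
    ⟨emb hp.inList f y, mem_fixC.2 ⟨hfix y, by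
      rw [← map_mul, ← map_mul, Subgroup.mem_centralizer_singleton_iff.1 y.2]⟩⟩
  refine Nat.card_le_card_of_injective E fun a b hab => ?_
  apply Subtype.ext
  apply hinj
  exact congrArg (fun z : ↥(fixC σ (emb hp.inList f x)) => (z : ↥(D.group (AlgebraicClosure (ZMod r))))) hab

open Cfsg.Agent.H742.EX in
theorem le_cG {G : Type*} [Group G] [Finite G] {x : G} {c m : ℕ}
    (hm : Nat.card ↥(Subgroup.centralizer {x}) ≤ m) (hm0 : 0 < m) (h : c * m ≤ Nat.card G) : c ≤ cG x := by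
  have h1 := card_G x
  have e : Nat.card {g : G // g⁻¹ * x * g = x} = Nat.card ↥(Subgroup.centralizer {x}) := by
    refine Nat.card_congr (Equiv.subtypeEquivRight fun g => ?_)
    rw [Subgroup.mem_centralizer_singleton_iff, mul_assoc, inv_mul_eq_iff_eq_mul]
    exact eq_comm
  rw [e] at h1
  have h2 : c * m ≤ cG x * m := h.trans (by rw [h1]; exact Nat.mul_le_mul_left _ hm)
  exact Nat.le_of_mul_le_mul_right h2 hm0

end Cfsg.Agent.H373.TS
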